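import Cfsg.Agent.H780.P9.CThree

/-!
# S5925, box H: identities of the last stages of the search (helper861)
-/

set_option autoImplicit false
set_option linter.style.longLine false
set_option linter.unusedSimpArgs false

namespace Cfsg.Agent.H861.P9
open Matrix Cfsg.Agent.H879.E83 Cfsg.Agent.H780.P9

section
variable {F : Type*} [Field F] {g : F} {q : Mt F}

/-- an entry of `Mh q * q = 1` -/
theorem hrow (h : Mh q * q = 1) (a c : Fin 5) :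
    Jv a * (q (sgm a) 2 ^ 9 * q 0 c + q (sgm a) 1 ^ 9 * q 1 c + q (sgm a) 0 ^ 9 * q 2 c
      - q (sgm a) 4 ^ 9 * q 3 c - q (sgm a) 3 ^ 9 * q 4 c) = (1 : Mt F) a c := by
  rw [← h, Matrix.mul_apply, Fin.sum_univ_five]
  have e0 : sgm (0 : Fin 5) = 2 := by decide
  have e1 : sgm (1 : Fin 5) = 1 := by decide
  have e2 : sgm (2 : Fin 5) = 0 := by decide
  have e3 : sgm (3 : Fin 5) = 4 := by decide
  have e4 : sgm (4 : Fin 5) = 3 := by decide
  have j0 : Jv (0 : Fin 5) = (1 : F) := rfl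
  have j1 : Jv (1 : Fin 5) = (1 : F) := rfl
  have j2 : Jv (2 : Fin 5) = (1 : F) := rfl
  have j3 : Jv (3 : Fin 5) = (-1 : F) := rfl
  have j4 : Jv (4 : Fin 5) = (-1 : F) := rfl
  simp only [Mh, e0, e1, e2, e3, e4, j0, j1, j2, j3, j4]
  ring

/-- symmetry with the smaller index first -/
structure Sy (q : Mt F) : Prop where
  s10 : q 1 0 = q 0 1
  s20 : q 2 0 = q 0 2
  s30 : q 3 0 = q 0 3
  s40 : q 4 0 = q 0 4
  s21 : q 2 1 = q 1 2
  s31 : q 3 1 = q 1 3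
  s41 : q 4 1 = q 1 4
  s32 : q 3 2 = q 2 3
  s42 : q 4 2 = q 2 4
  s43 : q 4 3 = q 3 4

theorem Sy.of (h : qᵀ = q) : Sy q := by
  have hs : ∀ x y, q x y = q y x := fun x y => by
    conv_lhs => rw [← h, Matrix.transpose_apply]
  exact ⟨hs _ _, hs _ _, hs _ _, hs _ _, hs _ _, hs _ _, hs _ _, hs _ _, hs _ _, hs _ _⟩

/-- the ten equations of the last stages -/
structure HE (q : Mt F) : Prop where
  h13 : q 1 2 ^ 9 * q 0 3 + q 1 1 ^ 9 * q 1 3 + q 0 1 ^ 9 * q 2 3 - q 1 3 ^ 9 * q 3 4 = q 1 4 ^ 9 * q 3 3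
  h23 : q 0 2 ^ 9 * q 0 3 + q 0 1 ^ 9 * q 1 3 + q 0 0 ^ 9 * q 2 3 - q 0 3 ^ 9 * q 3 4 = q 0 4 ^ 9 * q 3 3
  h03 : q 2 2 ^ 9 * q 0 3 + q 1 2 ^ 9 * q 1 3 + q 0 2 ^ 9 * q 2 3 - q 2 3 ^ 9 * q 3 4 = q 2 4 ^ 9 * q 3 3
  h14 : q 1 2 ^ 9 * q 0 4 + q 1 1 ^ 9 * q 1 4 + q 0 1 ^ 9 * q 2 4 - q 1 4 ^ 9 * q 3 4 = q 1 3 ^ 9 * q 4 4
  h24 : q 0 2 ^ 9 * q 0 4 + q 0 1 ^ 9 * q 1 4 + q 0 0 ^ 9 * q 2 4 - q 0 4 ^ 9 * q 3 4 = q 0 3 ^ 9 * q 4 4
  h04 : q 2 2 ^ 9 * q 0 4 + q 1 2 ^ 9 * q 1 4 + q 0 2 ^ 9 * q 2 4 - q 2 4 ^ 9 * q 3 4 = q 2 3 ^ 9 * q 4 4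
  h43 : q 2 3 ^ 9 * q 0 3 + q 1 3 ^ 9 * q 1 3 + q 0 3 ^ 9 * q 2 3 - q 3 4 ^ 9 * q 3 3 - q 3 3 ^ 9 * q 3 4 = 0
  h34 : q 2 4 ^ 9 * q 0 4 + q 1 4 ^ 9 * q 1 4 + q 0 4 ^ 9 * q 2 4 - q 4 4 ^ 9 * q 3 4 - q 3 4 ^ 9 * q 4 4 = 0
  h33 : q 3 4 ^ 9 * q 3 4 + q 4 4 ^ 9 * q 3 3 - (q 2 4 ^ 9 * q 0 3 + q 1 4 ^ 9 * q 1 3 + q 0 4 ^ 9 * q 2 3) = 1

theorem HE.of (h : Mh q * q = 1) (hs : Sy q) : HE q := by
  have e0 : sgm (0 : Fin 5) = 2 := by decide
  have e1 : sgm (1 : Fin 5) = 1 := by decide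
  have e2 : sgm (2 : Fin 5) = 0 := by decide
  have e3 : sgm (3 : Fin 5) = 4 := by decide
  have e4 : sgm (4 : Fin 5) = 3 := by decide
  have j0 : Jv (0 : Fin 5) = (1 : F) := rfl
  have j1 : Jv (1 : Fin 5) = (1 : F) := rfl
  have j2 : Jv (2 : Fin 5) = (1 : F) := rfl
  have j3 : Jv (3 : Fin 5) = (-1 : F) := rfl
  have j4 : Jv (4 : Fin 5) = (-1 : F) := rfl
  obtain ⟨s10, s20, s30, s40, s21, s31, s41, s32, s42, s43⟩ := hs
  refine ⟨?_, ?_, ?_, ?_, ?_, ?_, ?_, ?_, ?_⟩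
  · have e := hrow h 1 3
    simp only [e1, j1, s10, s20, s30, s40, s21, s31, s41, s32, s42, s43] at e
    rw [Matrix.one_apply_ne (by decide)] at e
    linear_combination e
  · have e := hrow h 2 3
    simp only [e2, j2, s10, s20, s30, s40, s21, s31, s41, s32, s42, s43] at e
    rw [Matrix.one_apply_ne (by decide)] at e
    linear_combination e
  · have e := hrow h 0 3
    simp only [e0, j0, s10, s20, s30, s40, s21, s31, s41, s32, s42, s43] at e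
    rw [Matrix.one_apply_ne (by decide)] at e
    linear_combination e
  · have e := hrow h 1 4
    simp only [e1, j1, s10, s20, s30, s40, s21, s31, s41, s32, s42, s43] at e
    rw [Matrix.one_apply_ne (by decide)] at e
    linear_combination e
  · have e := hrow h 2 4
    simp only [e2, j2, s10, s20, s30, s40, s21, s31, s41, s32, s42, s43] at e
    rw [Matrix.one_apply_ne (by decide)] at e
    linear_combination e
  · have e := hrow h 0 4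
    simp only [e0, j0, s10, s20, s30, s40, s21, s31, s41, s32, s42, s43] at e
    rw [Matrix.one_apply_ne (by decide)] at e
    linear_combination e
  · have e := hrow h 4 3
    simp only [e4, j4, s10, s20, s30, s40, s21, s31, s41, s32, s42, s43] at e
    rw [Matrix.one_apply_ne (by decide)] at e
    linear_combination -e
  · have e := hrow h 3 4
    simp only [e3, j3, s10, s20, s30, s40, s21, s31, s41, s32, s42, s43] at e
    rw [Matrix.one_apply_ne (by decide)] at e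
    linear_combination -e
  · have e := hrow h 3 3
    simp only [e3, j3, s10, s20, s30, s40, s21, s31, s41, s32, s42, s43] at e
    rw [Matrix.one_apply_eq] at e
    linear_combination e

end
end Cfsg.Agent.H861.P9
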