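import Cfsg.Agent.H780.P9.Iface
import Cfsg.Agent.H879.E83.DThree
import Cfsg.Agent.H861.P9.Ids

/-!
# S5925, box H: the WP lemmas of `plD1`, `plD2`, `plD3` (helper861)
-/

set_option autoImplicit false
set_option linter.style.longLine false
set_option linter.unusedVariables false
set_option linter.unusedSimpArgs false

namespace Cfsg.Agent.H861.P9
open Matrix Cfsg.Agent.H879.E83 Cfsg.Agent.H780.P9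

section
variable {F : Type*} [Field F] {g : F} {q p : Mt F} {m : F} {t : Fin 10 → F}

theorem flr {G : Prop} {ks ls ls' : List F} {cs : List Ex} {js : List ℕ} {P : Plan}
    (hx : ∀ c ∈ cs, c.eval g ks ls = 0) (hs : (js.map fun j => ls.getD j 0) = ls') (h : WP g G P ks ls') :
    WP g G (.fl cs js P) ks ls := by subst hs; exact ⟨hx, h⟩

theorem ctx_m0 (c : Ctx g q p m t) : m ≠ 0 := by
  rintro rfl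
  have h := c.m80
  rw [zero_pow (by norm_num)] at h
  exact zero_ne_one h

theorem ctx_p11 (c : Ctx g q p m t) : p 1 1 = q 1 1 := by
  have e := c.papp 1 1
  change p 1 1 = 1 * 1 * q 1 1 at e
  rw [e]; ring

theorem ctx_p01 (c : Ctx g q p m t) : p 0 1 = q 0 1 := by
  have e := c.papp 0 1
  change p 0 1 = 1 * 1 * q 0 1 at e
  rw [e]; ring

theorem ctx_p12 (c : Ctx g q p m t) : p 1 2 = q 1 2 := by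
  have e := c.papp 1 2
  change p 1 2 = 1 * 1 * q 1 2 at e
  rw [e]; ring

theorem ctx_p13 (c : Ctx g q p m t) : p 1 3 = m * q 1 3 := by
  have e := c.papp 1 3
  change p 1 3 = 1 * m * q 1 3 at e
  rw [e]; ring

theorem ctx_p14 (c : Ctx g q p m t) : p 1 4 = m ^ 71 * q 1 4 := by
  have e := c.papp 1 4
  change p 1 4 = 1 * m ^ 71 * q 1 4 at e
  rw [e]; ring

theorem ctx_Q34 (c : Ctx g q p m t) : QQ p 3 4 = q 3 4 * q 3 4 ^ 9 := by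
  have e1 : p 3 4 = m * m ^ 71 * q 3 4 := c.papp 3 4
  have e2 : QQ p 3 4 = p 3 4 * p 4 3 ^ 9 := rfl
  rw [e2, c.sym 4 3, e1]
  calc m * m ^ 71 * q 3 4 * (m * m ^ 71 * q 3 4) ^ 9 = (m ^ 80) ^ 9 * (q 3 4 * q 3 4 ^ 9) := by ring
    _ = _ := by rw [c.m80, one_pow, one_mul]

theorem ctx_Q33 (c : Ctx g q p m t) : QQ p 3 3 = q 3 3 * q 4 4 ^ 9 := by
  have e1 : p 3 3 = m * m * q 3 3 := c.papp 3 3
  have e3 : p 4 4 = m ^ 71 * m ^ 71 * q 4 4 := c.papp 4 4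
  have e2 : QQ p 3 3 = p 3 3 * p 4 4 ^ 9 := rfl
  rw [e2, e1, e3]
  calc m * m * q 3 3 * (m ^ 71 * m ^ 71 * q 4 4) ^ 9 = (m ^ 80) ^ 16 * (q 3 3 * q 4 4 ^ 9) := by ring
    _ = _ := by rw [c.m80, one_pow, one_mul]

/-- the scalars of the last stages, entries of `q` -/
def K54 (g : F) (q p : Mt F) (t : Fin 10 → F) (x y : F) (s : Fin 11 → F) : List F :=
  [t 0, t 1, t 2, t 3, t 4, t 5, t 6, QQ p 0 1, QQ p 1 3, QQ p 1 1, B02 t, B00 g t, B03 g t, B04 g t,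
   q 1 1, q 0 1, q 1 2, p 1 3, p 1 4, q 1 1 ^ 9, q 0 1 ^ 9, q 1 2 ^ 9, p 1 3 ^ 9, p 1 4 ^ 9, (p 1 4 ^ 9) ^ 79,
   q 0 1 * q 1 1 ^ 9, q 1 2 * q 1 1 ^ 9, q 0 1 * q 0 1 ^ 9, q 1 2 * q 1 2 ^ 9, t 7, QQ p 0 2, QQ p 0 0, QQ p 0 0 ^ 9,
   t 8, QQ p 0 3, QQ p 0 4, QQ p 0 3 ^ 9, QQ p 0 4 ^ 9, x, y, s 0, s 1, s 2, s 3, s 4, s 5, s 6, s 7, s 8, s 9, s 10,
   t 9, q 3 4 * q 3 4 ^ 9, q 3 3 * q 4 4 ^ 9]

theorem K51_eq (c : Ctx g q p m t) (x y : F) (s : Fin 11 → F) :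
    K51 g p t x y s ++ [t 9] ++ [q 3 4 * q 3 4 ^ 9] ++ [q 3 3 * q 4 4 ^ 9] = K54 g q p t x y s := by
  simp only [K51, K40, K38, K33, K29, ctx_p11 c, ctx_p01 c, ctx_p12 c]
  rfl

theorem pow80' (c : Ctx g q p m t) {a b : Fin 5} (h : q a b ≠ 0) : q a b ^ 80 = 1 := by
  have e : q a b * q a b ^ 80 = q a b * 1 := by rw [mul_one, ← pow_succ']; exact c.q81 a b
  exact mul_left_cancel₀ h e

/-- the leaf -/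
theorem sol_of (c : Ctx g q p m t) (h00 : ((q 0 0) - g ^ 63) = 0) (h01 : ((q 0 1) - g ^ 0) = 0) (h02 : ((q 0 2) - g ^ 4) = 0) (h03 : ((q 0 3) - g ^ 35) = 0) (h04 : ((q 0 4) - g ^ 72) = 0) (h11 : ((q 1 1) - g ^ 1) = 0) (h12 : ((q 1 2) - g ^ 10) = 0) (h13 : ((q 1 3) - g ^ 44) = 0) (h14 : ((q 1 4) - g ^ 4) = 0) (h22 : ((q 2 2) - g ^ 3) = 0) (h23 : ((q 2 3) - g ^ 42) = 0) (h24 : ((q 2 4) - g ^ 5) = 0) (h33 : ((q 3 3) - g ^ 65) = 0) (h34 : ((q 3 4) - g ^ 33) = 0) (h44 : ((q 4 4) - g ^ 65) = 0) : Sol g q := by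
  intro a b
  have hs := c.symq
  fin_cases a <;> fin_cases b
  · exact sub_eq_zero.1 h00
  · exact sub_eq_zero.1 h01
  · exact sub_eq_zero.1 h02
  · exact sub_eq_zero.1 h03
  · exact sub_eq_zero.1 h04
  · exact (hs 1 0).trans (sub_eq_zero.1 h01)
  · exact sub_eq_zero.1 h11
  · exact sub_eq_zero.1 h12
  · exact sub_eq_zero.1 h13
  · exact sub_eq_zero.1 h14
  · exact (hs 2 0).trans (sub_eq_zero.1 h02)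
  · exact (hs 2 1).trans (sub_eq_zero.1 h12)
  · exact sub_eq_zero.1 h22
  · exact sub_eq_zero.1 h23
  · exact sub_eq_zero.1 h24
  · exact (hs 3 0).trans (sub_eq_zero.1 h03)
  · exact (hs 3 1).trans (sub_eq_zero.1 h13)
  · exact (hs 3 2).trans (sub_eq_zero.1 h23)
  · exact sub_eq_zero.1 h33
  · exact sub_eq_zero.1 h34
  · exact (hs 4 0).trans (sub_eq_zero.1 h04)
  · exact (hs 4 1).trans (sub_eq_zero.1 h14)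
  · exact (hs 4 2).trans (sub_eq_zero.1 h24)
  · exact (hs 4 3).trans (sub_eq_zero.1 h34)
  · exact sub_eq_zero.1 h44

theorem wp_D3 (c : Ctx g q p m t) (x y : F) (s : Fin 11 → F) :
    WP g (Sol g q) plD3 (K54 g q p t x y s) [q 0 0, q 0 2, q 2 2, q 0 3, q 2 3, q 1 3, q 0 4, q 2 4, q 1 4, q 3 3, q 3 4, q 4 4] := by
  have H := d3_eq c.nine c.h3 (c11 := q 1 1 ^ 9) (c01 := q 0 1 ^ 9) (c12 := q 1 2 ^ 9) (by rw [← pow_mul]) (by rw [← pow_mul]) (by rw [← pow_mul]) rfl rfl rfl rfl rfl rfl rfl rfl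
  obtain ⟨R12, hR12⟩ : ∃ r : F, r = (((((q 0 2) ^ 3) ^ 3) * (q 2 2)) + ((((q 2 3) ^ 3) ^ 3) * (q 2 4))) := ⟨_, rfl⟩
  obtain ⟨R13, hR13⟩ : ∃ r : F, r = ((g ^ 50 * (((q 0 1 ^ 9) * (q 2 2)) + ((((q 1 3) ^ 3) ^ 3) * (q 2 4)))) + (g ^ 24 * ((((((q 3 3) ^ 3) ^ 3) * (q 0 4)) + ((((q 1 3) ^ 3) ^ 3) * (q 0 1))) ^ 3))) := ⟨_, rfl⟩
  obtain ⟨R14, hR14⟩ : ∃ r : F, r = ((((((g ^ 26 * (((((q 0 2) ^ 3) ^ 3) * (q 0 2)) + ((((q 2 3) ^ 3) ^ 3) * (q 0 4)))) + (g ^ 63 * (((q 0 1 ^ 9) * (q 1 2)) + ((((q 1 3) ^ 3) ^ 3) * (q 1 4))))) + (g ^ 7 * (-(((((q 0 4) ^ 3) ^ 3) * (q 2 3)) + ((((q 3 4) ^ 3) ^ 3) * (q 3 4)))))) + (g ^ 74 * (-(((((q 0 3) ^ 3) ^ 3) * (q 2 4)) + ((((q 3 3) ^ 3) ^ 3) * (q 4 4)))))) - ((((g ^ 69 * ((-(((((q 2 3) ^ 3) ^ 3) * (q 0 4)) + ((q 1 2 ^ 9) * (q 0 1)))) ^ 3)) + (g ^ 63 * ((-(((((q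 0 3) ^ 3) ^ 3) * (q 2 4)) + ((q 0 1 ^ 9) * (q 1 2)))) ^ 3))) + (g ^ 7 * ((((((q 3 3) ^ 3) ^ 3) * (q 4 4)) + ((((q 1 3) ^ 3) ^ 3) * (q 1 4))) ^ 3))) + (g ^ 61 * ((-(((((q 1 3) ^ 3) ^ 3) * (q 1 4)) + ((q 1 1 ^ 9) * (q 1 1)))) ^ 3)))) + g ^ 0) := ⟨_, rfl⟩
  obtain ⟨R15, hR15⟩ : ∃ r : F, r = ((g ^ 70 * (-(((((q 0 4) ^ 3) ^ 3) * (q 2 2)) + ((((q 3 4) ^ 3) ^ 3) * (q 2 4))))) + (g ^ 32 * ((-(((((q 0 3) ^ 3) ^ 3) * (q 1 4)) + ((q 0 1 ^ 9) * (q 1 1)))) ^ 3))) := ⟨_, rfl⟩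
  obtain ⟨R16, hR16⟩ : ∃ r : F, r = (((((g ^ 7 * (((q 0 1 ^ 9) * (q 1 2)) + ((((q 1 3) ^ 3) ^ 3) * (q 1 4)))) + (g ^ 74 * (((((q 0 0) ^ 3) ^ 3) * (q 2 2)) + ((((q 0 3) ^ 3) ^ 3) * (q 2 4))))) + (g ^ 26 * (-(((((q 0 4) ^ 3) ^ 3) * (q 2 3)) + ((((q 3 4) ^ 3) ^ 3) * (q 3 4)))))) + (g ^ 63 * (-(((((q 0 3) ^ 3) ^ 3) * (q 2 4)) + ((((q 3 3) ^ 3) ^ 3) * (q 4 4)))))) - ((((g ^ 7 * ((-(((((q 2 3) ^ 3) ^ 3) * (q 0 4)) + ((q 1 2 ^ 9) * (q 0 1)))) ^ 3)) + (g ^ 61 * ((-(((((q 0 3) ^ 3) ^ 3) * (q 2 4)) + ((q 0 1 ^ 9) * (q 1 2)))) ^ 3))) + (g ^ 69 * ((-(((((q 1 3) ^ 3) ^ 3) * (q 1 4)) + ((q 1 1 ^ 9) * (q 1 1)))) ^ 3))) + (g ^ 63 * ((((((q 3 4) ^ 3) ^ 3) * (q 3 4)) + ((((q 1 4) ^ 3) ^ 3) * (q 1 3))) ^ 3)))) := ⟨_, rfl⟩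
  obtain ⟨R17, hR17⟩ : ∃ r : F, r = ((g ^ 70 * (((q 0 1 ^ 9) * (q 0 2)) + ((((q 1 3) ^ 3) ^ 3) * (q 0 4)))) + (g ^ 64 * ((((((q 3 4) ^ 3) ^ 3) * (q 2 4)) + ((((q 1 4) ^ 3) ^ 3) * (q 1 2))) ^ 3))) := ⟨_, rfl⟩
  obtain ⟨R18, hR18⟩ : ∃ r : F, r = (-(((((q 0 4) ^ 3) ^ 3) * (q 0 2)) + ((((q 3 4) ^ 3) ^ 3) * (q 0 4)))) := ⟨_, rfl⟩
  obtain ⟨R19, hR19⟩ : ∃ r : F, r = ((g ^ 50 * (-(((((q 0 3) ^ 3) ^ 3) * (q 0 2)) + ((((q 3 3) ^ 3) ^ 3) * (q 0 4))))) + (g ^ 72 * ((-(((((q 2 3) ^ 3) ^ 3) * (q 1 4)) + ((q 1 2 ^ 9) * (q 1 1)))) ^ 3))) := ⟨_, rfl⟩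
  rw [← hR12, ← hR13, ← hR14, ← hR15, ← hR16, ← hR17, ← hR18, ← hR19] at H
  refine WP_df (x := R12) hR12.symm ?_
  refine WP_df (x := R13) hR13.symm ?_
  refine WP_df (x := R14) hR14.symm ?_
  refine WP_df (x := R15) hR15.symm ?_
  refine WP_df (x := R16) hR16.symm ?_
  refine WP_df (x := R17) hR17.symm ?_
  refine WP_df (x := R18) hR18.symm ?_
  refine WP_df (x := R19) hR19.symm ?_
  refine flr (ls' := [q 0 0, q 0 2, q 2 2, q 0 3, q 2 3, q 1 3, q 0 4, q 2 4, q 1 4, q 3 3, q 3 4, q 4 4]) ?_ rfl (WP_leaf fun h => ?_)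
  · intro e he
    obtain rfl := List.mem_singleton.1 he
    exact H
  · simp only [List.forall_mem_cons] at h
    obtain ⟨l0, l1, l2, l3, l4, l5, l6, l7, l8, l9, l10, l11, l12, l13, l14, -⟩ := h
    exact sol_of c l0 l1 l2 l3 l4 l5 l6 l7 l8 l9 l10 l11 l12 l13 l14

theorem wp_D2 (c : Ctx g q p m t) (x y : F) (s : Fin 11 → F) :
    WP g (Sol g q) plD2 (K54 g q p t x y s) [q 0 0, q 0 2, q 2 2, q 0 3, q 2 3, q 1 3, q 0 4, q 2 4, q 1 4, q 3 3, q 3 4] := by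
  have E := HE.of c.nine.herm (Sy.of c.nine.sym)
  refine WP_ksp (fun h0 => ?_) (fun h0 => ?_)
  · have h0' : p 1 3 = 0 := h0
    have z : q 1 3 = 0 := (mul_eq_zero.1 ((ctx_p13 c).symm.trans h0')).resolve_left (ctx_m0 c)
    refine flr (ls' := [q 0 0, q 0 2, q 2 2, q 0 3, q 2 3, q 1 3, q 0 4, q 2 4, q 1 4, q 3 3, q 3 4]) ?_ rfl (WP_df (x := q 0 3 ^ 9 * q 4 4) ?_ (WP_df (x := q 2 3 ^ 9 * q 4 4) ?_ (WP_ex (q 4 4) (c.q81 4 4)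
      (flr (ls' := [q 0 0, q 0 2, q 2 2, q 0 3, q 2 3, q 1 3, q 0 4, q 2 4, q 1 4, q 3 3, q 3 4, q 4 4]) ?_ rfl (flr (ls' := [q 0 0, q 0 2, q 2 2, q 0 3, q 2 3, q 1 3, q 0 4, q 2 4, q 1 4, q 3 3, q 3 4, q 4 4]) ?_ rfl (wp_D3 c x y s))))))
    · refine List.forall_mem_cons.2 ⟨?_, List.forall_mem_nil _⟩
      show (((((q 1 2 ^ 9) * (q 0 4)) + ((q 1 1 ^ 9) * (q 1 4))) + ((q 0 1 ^ 9) * (q 2 4))) - ((((q 1 4) ^ 3) ^ 3) * (q 3 4))) = 0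
      linear_combination E.h14 + (q 1 3 ^ 8 * q 4 4) * z
    · show (((((((q 0 2) ^ 3) ^ 3) * (q 0 4)) + ((q 0 1 ^ 9) * (q 1 4))) + ((((q 0 0) ^ 3) ^ 3) * (q 2 4))) - ((((q 0 4) ^ 3) ^ 3) * (q 3 4))) = q 0 3 ^ 9 * q 4 4
      linear_combination E.h24
    · show (((((((q 2 2) ^ 3) ^ 3) * (q 0 4)) + ((q 1 2 ^ 9) * (q 1 4))) + ((((q 0 2) ^ 3) ^ 3) * (q 2 4))) - ((((q 2 4) ^ 3) ^ 3) * (q 3 4))) = q 2 3 ^ 9 * q 4 4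
      linear_combination E.h04
    · refine List.forall_mem_cons.2 ⟨?_, List.forall_mem_cons.2 ⟨?_, List.forall_mem_nil _⟩⟩
      · show ((q 0 3 ^ 9 * q 4 4) - ((((q 0 3) ^ 3) ^ 3) * (q 4 4))) = 0
        ring
      · show ((q 2 3 ^ 9 * q 4 4) - ((((q 2 3) ^ 3) ^ 3) * (q 4 4))) = 0
        ring
    · refine List.forall_mem_cons.2 ⟨?_, List.forall_mem_cons.2 ⟨?_, List.forall_mem_cons.2 ⟨?_, List.forall_mem_cons.2 ⟨?_, List.forall_mem_cons.2 ⟨?_, List.forall_mem_cons.2 ⟨?_, List.forall_mem_nil _⟩⟩⟩⟩⟩⟩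
      · show (((q 3 3) * (((q 4 4) ^ 3) ^ 3)) - (q 3 3 * q 4 4 ^ 9)) = 0
        ring
      · show (((((((q 0 2) ^ 3) ^ 3) * (q 0 4)) + ((q 0 1 ^ 9) * (q 1 4))) + ((((q 0 0) ^ 3) ^ 3) * (q 2 4))) - (((((q 0 4) ^ 3) ^ 3) * (q 3 4)) + ((((q 0 3) ^ 3) ^ 3) * (q 4 4)))) = 0
        linear_combination E.h24
      · show (((((((q 2 2) ^ 3) ^ 3) * (q 0 4)) + ((q 1 2 ^ 9) * (q 1 4))) + ((((q 0 2) ^ 3) ^ 3) * (q 2 4))) - (((((q 2 4) ^ 3) ^ 3) * (q 3 4)) + ((((q 2 3) ^ 3) ^ 3) * (q 4 4)))) = 0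
        linear_combination E.h04
      · show ((((((q 3 4) ^ 3) ^ 3) * (q 3 3)) + ((((q 3 3) ^ 3) ^ 3) * (q 3 4))) - ((((((q 2 3) ^ 3) ^ 3) * (q 0 3)) + ((((q 1 3) ^ 3) ^ 3) * (q 1 3))) + ((((q 0 3) ^ 3) ^ 3) * (q 2 3)))) = 0
        linear_combination -E.h43
      · show ((((((q 4 4) ^ 3) ^ 3) * (q 3 4)) + ((((q 3 4) ^ 3) ^ 3) * (q 4 4))) - ((((((q 2 4) ^ 3) ^ 3) * (q 0 4)) + ((((q 1 4) ^ 3) ^ 3) * (q 1 4))) + ((((q 0 4) ^ 3) ^ 3) * (q 2 4)))) = 0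
        linear_combination -E.h34
      · show (((((((q 4 4) ^ 3) ^ 3) * (q 3 3)) + ((((q 3 4) ^ 3) ^ 3) * (q 3 4))) - ((((((q 2 4) ^ 3) ^ 3) * (q 0 3)) + ((((q 1 4) ^ 3) ^ 3) * (q 1 3))) + ((((q 0 4) ^ 3) ^ 3) * (q 2 3)))) - g ^ 0) = 0
        linear_combination E.h33
  · have h0' : p 1 3 ≠ 0 := h0
    have z : q 1 3 ≠ 0 := fun z => h0' (by rw [ctx_p13 c, z, mul_zero])
    have w : (q 1 3 ^ 9) ^ 80 = 1 := by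
      calc (q 1 3 ^ 9) ^ 80 = (q 1 3 ^ 80) ^ 9 := by ring
        _ = 1 := by rw [pow80' c z, one_pow]
    refine WP_df (x := q 4 4) ?_ (flr (ls' := [q 0 0, q 0 2, q 2 2, q 0 3, q 2 3, q 1 3, q 0 4, q 2 4, q 1 4, q 3 3, q 3 4, q 4 4]) ?_ rfl (wp_D3 c x y s))
    · show ((((((q 1 2 ^ 9) * (q 0 4)) + ((q 1 1 ^ 9) * (q 1 4))) + ((q 0 1 ^ 9) * (q 2 4))) - ((((q 1 4) ^ 3) ^ 3) * (q 3 4))) * ((((q 1 3) ^ 3) ^ 3) * (((((((q 1 3) ^ 3) ^ 3) ^ 3) * (((((q 1 3) ^ 3) ^ 3) ^ 3) ^ 3)) * ((((((q 1 3) ^ 3) ^ 3) ^ 3) ^ 3) ^ 3)) * ((((((q 1 3) ^ 3) ^ 3) ^ 3) * (((((q 1 3) ^ 3) ^ 3) ^ 3) ^ 3)) * ((((((q 1 3) ^ 3) ^ 3) ^ 3) ^ 3) ^ 3))))) = q 4 4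
      linear_combination (q 1 3 ^ 9) ^ 79 * E.h14 + q 4 4 * w
    · refine List.forall_mem_cons.2 ⟨?_, List.forall_mem_cons.2 ⟨?_, List.forall_mem_cons.2 ⟨?_, List.forall_mem_cons.2 ⟨?_, List.forall_mem_cons.2 ⟨?_, List.forall_mem_cons.2 ⟨?_, List.forall_mem_nil _⟩⟩⟩⟩⟩⟩
      · show (((q 3 3) * (((q 4 4) ^ 3) ^ 3)) - (q 3 3 * q 4 4 ^ 9)) = 0
        ring
      · show (((((((q 0 2) ^ 3) ^ 3) * (q 0 4)) + ((q 0 1 ^ 9) * (q 1 4))) + ((((q 0 0) ^ 3) ^ 3) * (q 2 4))) - (((((q 0 4) ^ 3) ^ 3) * (q 3 4)) + ((((q 0 3) ^ 3) ^ 3) * (q 4 4)))) = 0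
        linear_combination E.h24
      · show (((((((q 2 2) ^ 3) ^ 3) * (q 0 4)) + ((q 1 2 ^ 9) * (q 1 4))) + ((((q 0 2) ^ 3) ^ 3) * (q 2 4))) - (((((q 2 4) ^ 3) ^ 3) * (q 3 4)) + ((((q 2 3) ^ 3) ^ 3) * (q 4 4)))) = 0
        linear_combination E.h04
      · show ((((((q 3 4) ^ 3) ^ 3) * (q 3 3)) + ((((q 3 3) ^ 3) ^ 3) * (q 3 4))) - ((((((q 2 3) ^ 3) ^ 3) * (q 0 3)) + ((((q 1 3) ^ 3) ^ 3) * (q 1 3))) + ((((q 0 3) ^ 3) ^ 3) * (q 2 3)))) = 0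
        linear_combination -E.h43
      · show ((((((q 4 4) ^ 3) ^ 3) * (q 3 4)) + ((((q 3 4) ^ 3) ^ 3) * (q 4 4))) - ((((((q 2 4) ^ 3) ^ 3) * (q 0 4)) + ((((q 1 4) ^ 3) ^ 3) * (q 1 4))) + ((((q 0 4) ^ 3) ^ 3) * (q 2 4)))) = 0
        linear_combination -E.h34
      · show (((((((q 4 4) ^ 3) ^ 3) * (q 3 3)) + ((((q 3 4) ^ 3) ^ 3) * (q 3 4))) - ((((((q 2 4) ^ 3) ^ 3) * (q 0 3)) + ((((q 1 4) ^ 3) ^ 3) * (q 1 3))) + ((((q 0 4) ^ 3) ^ 3) * (q 2 3)))) - g ^ 0) = 0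
        linear_combination E.h33

theorem tr_mem (c : Ctx g q p m t) (ks ls : List F) (i : Fin 10) :
    ∃ e ∈ ([.zero, .pw 0, .neg (.pw 0)] : List Ex), e.eval g ks ls = t i := by
  rcases c.tr i with h | h | h
  · exact ⟨.zero, by simp, h.symm⟩
  · exact ⟨.pw 0, by simp, (pow_zero g).trans h.symm⟩
  · refine ⟨.neg (.pw 0), by simp, ?_⟩
    show -(g ^ 0) = t i
    rw [h, pow_zero]

theorem wp_D1 (c : Ctx g q p m t) (x y : F) (s : Fin 11 → F) : WD1 g q p t x y s := by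
  have E := HE.of c.nine.herm (Sy.of c.nine.sym)
  obtain ⟨e, he, hx⟩ := tr_mem c (K51 g p t x y s) [] 9
  refine WP_alt e he hx (WP_kf (x := q 3 4 * q 3 4 ^ 9) ?_ (WP_kf (x := q 3 3 * q 4 4 ^ 9) ?_ ?_))
  · show ((((g ^ 0 + (g ^ 20 * (((((t 1) + (t 2)) + (t 3)) + (t 5)) + (t 6)))) + (t 4)) + (-(t 8))) + (g ^ 60 * (t 9))) = q 3 4 * q 3 4 ^ 9
    rw [← ctx_Q34 c, c.Q34]
    ring
  · show ((((((((t 0) + (g ^ 43 * (t 1))) + (g ^ 46 * (t 2))) + (g ^ 55 * (t 3))) + (g ^ 42 * (t 5))) + (g ^ 3 * (t 6))) + (t 8)) + (g ^ 20 * (t 9))) = q 3 3 * q 4 4 ^ 9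
    rw [← ctx_Q33 c, c.Q33]
  rw [K51_eq c]
  refine WP_ex (q 3 4) (c.q81 3 4) (flr (ls' := [q 0 0, q 0 2, q 2 2, q 0 3, q 2 3, q 1 3, q 0 4, q 2 4, q 1 4, q 3 4]) ?_ rfl (WP_ksp (fun h0 => ?_) (fun h0 => ?_)))
  · refine List.forall_mem_cons.2 ⟨?_, List.forall_mem_nil _⟩
    show (((q 3 4) * (((q 3 4) ^ 3) ^ 3)) - (q 3 4 * q 3 4 ^ 9)) = 0
    ring
  · have h0' : p 1 4 = 0 := h0
    have z : q 1 4 = 0 := (mul_eq_zero.1 ((ctx_p14 c).symm.trans h0')).resolve_left (pow_ne_zero _ (ctx_m0 c))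
    refine flr (ls' := [q 0 0, q 0 2, q 2 2, q 0 3, q 2 3, q 1 3, q 0 4, q 2 4, q 1 4, q 3 4]) ?_ rfl (WP_df (x := q 0 4 ^ 9 * q 3 3) ?_ (WP_df (x := q 2 4 ^ 9 * q 3 3) ?_ (WP_ex (q 3 3) (c.q81 3 3)
      (flr (ls' := [q 0 0, q 0 2, q 2 2, q 0 3, q 2 3, q 1 3, q 0 4, q 2 4, q 1 4, q 3 3, q 3 4]) ?_ rfl (wp_D2 c x y s)))))
    · refine List.forall_mem_cons.2 ⟨?_, List.forall_mem_nil _⟩
      show (((((q 1 2 ^ 9) * (q 0 3)) + ((q 1 1 ^ 9) * (q 1 3))) + ((q 0 1 ^ 9) * (q 2 3))) - ((((q 1 3) ^ 3) ^ 3) * (q 3 4))) = 0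
      linear_combination E.h13 + (q 1 4 ^ 8 * q 3 3) * z
    · show (((((((q 0 2) ^ 3) ^ 3) * (q 0 3)) + ((q 0 1 ^ 9) * (q 1 3))) + ((((q 0 0) ^ 3) ^ 3) * (q 2 3))) - ((((q 0 3) ^ 3) ^ 3) * (q 3 4))) = q 0 4 ^ 9 * q 3 3
      linear_combination E.h23
    · show (((((((q 2 2) ^ 3) ^ 3) * (q 0 3)) + ((q 1 2 ^ 9) * (q 1 3))) + ((((q 0 2) ^ 3) ^ 3) * (q 2 3))) - ((((q 2 3) ^ 3) ^ 3) * (q 3 4))) = q 2 4 ^ 9 * q 3 3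
      linear_combination E.h03
    · refine List.forall_mem_cons.2 ⟨?_, List.forall_mem_cons.2 ⟨?_, List.forall_mem_nil _⟩⟩
      · show ((q 0 4 ^ 9 * q 3 3) - ((((q 0 4) ^ 3) ^ 3) * (q 3 3))) = 0
        ring
      · show ((q 2 4 ^ 9 * q 3 3) - ((((q 2 4) ^ 3) ^ 3) * (q 3 3))) = 0
        ring
  · have h0' : p 1 4 ≠ 0 := h0
    have z : q 1 4 ≠ 0 := fun z => h0' (by rw [ctx_p14 c, z, mul_zero])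
    have w : (q 1 4 ^ 9) ^ 80 = 1 := by
      calc (q 1 4 ^ 9) ^ 80 = (q 1 4 ^ 80) ^ 9 := by ring
        _ = 1 := by rw [pow80' c z, one_pow]
    refine WP_df (x := q 3 3) ?_ (flr (ls' := [q 0 0, q 0 2, q 2 2, q 0 3, q 2 3, q 1 3, q 0 4, q 2 4, q 1 4, q 3 3, q 3 4]) ?_ rfl (wp_D2 c x y s))
    · show ((((((q 1 2 ^ 9) * (q 0 3)) + ((q 1 1 ^ 9) * (q 1 3))) + ((q 0 1 ^ 9) * (q 2 3))) - ((((q 1 3) ^ 3) ^ 3) * (q 3 4))) * ((((q 1 4) ^ 3) ^ 3) * (((((((q 1 4) ^ 3) ^ 3) ^ 3) * (((((q 1 4) ^ 3) ^ 3) ^ 3) ^ 3)) * ((((((q 1 4) ^ 3) ^ 3) ^ 3) ^ 3) ^ 3)) * ((((((q 1 4) ^ 3) ^ 3) ^ 3) * (((((q 1 4) ^ 3) ^ 3) ^ 3) ^ 3)) * ((((((q 1 4) ^ 3) ^ 3) ^ 3) ^ 3) ^ 3))))) = q 3 3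
      linear_combination (q 1 4 ^ 9) ^ 79 * E.h13 + q 3 3 * w
    · refine List.forall_mem_cons.2 ⟨?_, List.forall_mem_cons.2 ⟨?_, List.forall_mem_nil _⟩⟩
      · show ((((((((q 0 2) ^ 3) ^ 3) * (q 0 3)) + ((q 0 1 ^ 9) * (q 1 3))) + ((((q 0 0) ^ 3) ^ 3) * (q 2 3))) - ((((q 0 3) ^ 3) ^ 3) * (q 3 4))) - ((((q 0 4) ^ 3) ^ 3) * (q 3 3))) = 0
        linear_combination E.h23
      · show ((((((((q 2 2) ^ 3) ^ 3) * (q 0 3)) + ((q 1 2 ^ 9) * (q 1 3))) + ((((q 0 2) ^ 3) ^ 3) * (q 2 3))) - ((((q 2 3) ^ 3) ^ 3) * (q 3 4))) - ((((q 2 4) ^ 3) ^ 3) * (q 3 3))) = 0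
        linear_combination E.h03

end
end Cfsg.Agent.H861.P9
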