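import Cfsg.Agent.H861.P9.PForm

/-!
# S5925, box H, piece G1: `pspace` (helper861)

The products `Mh q a b * q a b` of a solution `q` in ten parameters `t i ∈ {0, 1, 2}`.
-/

set_option autoImplicit false

namespace Cfsg.Agent.H861.P9

open Cfsg.Agent.H879.E83
open Cfsg.Agent.H516.BS (io)

variable {F : Type*} [Field F] [CharP F 3] {g : F}

/-- `g ^ e`, or zero for `e = 80` -/
def co (g : F) (e : ℕ) : F := if e = 80 then 0 else g ^ e

omit [CharP F 3] in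
theorem co_zero : co g 80 = 0 := if_pos rfl

omit [CharP F 3] in
theorem co_pow {e : ℕ} (h : e ≠ 80) : co g e = g ^ e := if_neg h

theorem tg_ce (hg : g ^ 4 = 1 - g) (e : ℕ) : tg g (ce e) = co g e := by
  unfold ce co
  split_ifs
  · rw [map_zero]
  · exact tg_cd hg e

omit [CharP F 3] in
theorem sum10 (f : Fin 10 → F) : ∑ i, f i = f 0 + f 1 + f 2 + f 3 + f 4 + f 5 + f 6 + f 7 + f 8 + f 9 := by
  rw [Fin.sum_univ_castSucc, Fin.sum_univ_castSucc, Fin.sum_univ_eight]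
  rfl

/-- the constant -/
def cc (a b : Fin 5) : F := if a = b then 0 else 1

/-- all nine entries at once -/
theorem pspace' {q : Mt F} (hg : g ^ 4 = 1 - g) (h : PNine g q) :
    ∃ t : Fin 10 → F, (∀ i, t i = 0 ∨ t i = 1 ∨ t i = 2) ∧
      ∀ m : Fin 9, Mh q (ea m) (eb m) * q (ea m) (eb m) = cc (ea m) (eb m) + ∑ i, t i * co g (CE m i) := by
  obtain ⟨n, h1, h2, h3, h4⟩ := h.trits
  refine ⟨fun i => io F (∑ k, MT i k * n (rj k) (rl k)), fun i => io_cases _, fun m => ?_⟩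
  rw [h4, P_lf hg h1 h2 h3, lf_congr g _ (c := c0 (ea m) (eb m)) (c' := c0 (ea m) (eb m)) rfl
    (f' := fun k j => ∑ i, MT i k * ce (CE m i) j) (fun k => funext fun j => chkT m k j), ← lf_subst]
  unfold lf
  congr 1
  · unfold c0 cc
    split_ifs
    · rw [map_zero]
    · rw [tg_cd hg, pow_zero]
  · exact Finset.sum_congr rfl fun i _ => by rw [tg_ce hg]

/-- **The P-space.** -/
theorem pspace {q : Mt F} (hg : g ^ 4 = 1 - g) (h : PNine g q) :
    ∃ t : Fin 10 → F, (∀ i, t i = 0 ∨ t i = 1 ∨ t i = 2) ∧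
      Mh q 0 1 * q 0 1 = 1 + t 0 + t 1 * g ^ 1 + t 2 * g ^ 2 + t 3 * g ^ 3 ∧
      Mh q 1 3 * q 1 3 = 1 + t 4 + t 5 * g ^ 25 + t 6 * g ^ 55 ∧
      Mh q 1 1 * q 1 1 = t 0 + t 1 * g ^ 20 + t 2 * g ^ 20 + t 3 * g ^ 60 + t 4 ∧
      Mh q 0 2 * q 0 2 = 1 + t 4 + t 7 * g ^ 20 ∧
      Mh q 0 0 * q 0 0 = t 1 * g ^ 18 + t 2 * g ^ 43 + t 3 * g ^ 54 + t 4 + t 7 * g ^ 60 ∧
      Mh q 0 3 * q 0 3 = 1 + t 5 * g ^ 45 + t 6 * g ^ 25 + t 7 * g ^ 20 + t 8 ∧
      Mh q 0 4 * q 0 4 = 1 + t 0 * g ^ 40 + t 1 * g ^ 43 + t 2 * g ^ 46 + t 3 * g ^ 49 + t 4 + t 5 * g ^ 5 + t 6 * g ^ 65 + t 7 * g ^ 60 + t 8 * g ^ 40 ∧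
      Mh q 3 3 * q 3 3 = t 0 + t 1 * g ^ 43 + t 2 * g ^ 46 + t 3 * g ^ 55 + t 5 * g ^ 42 + t 6 * g ^ 3 + t 8 + t 9 * g ^ 20 ∧
      Mh q 3 4 * q 3 4 = 1 + t 1 * g ^ 20 + t 2 * g ^ 20 + t 3 * g ^ 20 + t 4 + t 5 * g ^ 20 + t 6 * g ^ 20 + t 8 * g ^ 40 + t 9 * g ^ 60 := by
  obtain ⟨t, h1, h2⟩ := pspace' hg h
  refine ⟨t, h1, ?_, ?_, ?_, ?_, ?_, ?_, ?_, ?_, ?_⟩
  · have e : Mh q 0 1 * q 0 1 = 1 + (t 0 * co g 0 + t 1 * co g 1 + t 2 * co g 2 + t 3 * co g 3 + t 4 * co g 80 + t 5 * co g 80 + t 6 * co g 80 + t 7 * co g 80 + t 8 * co g 80 + t 9 * co g 80) := (h2 0).trans (by rw [sum10]; rfl)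
    rw [e, co_zero, co_pow (e := 0) (by decide), co_pow (e := 1) (by decide), co_pow (e := 2) (by decide), co_pow (e := 3) (by decide)]
    ring
  · have e : Mh q 1 3 * q 1 3 = 1 + (t 0 * co g 80 + t 1 * co g 80 + t 2 * co g 80 + t 3 * co g 80 + t 4 * co g 0 + t 5 * co g 25 + t 6 * co g 55 + t 7 * co g 80 + t 8 * co g 80 + t 9 * co g 80) := (h2 1).trans (by rw [sum10]; rfl)
    rw [e, co_zero, co_pow (e := 0) (by decide), co_pow (e := 25) (by decide), co_pow (e := 55) (by decide)]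
    ring
  · have e : Mh q 1 1 * q 1 1 = 0 + (t 0 * co g 0 + t 1 * co g 20 + t 2 * co g 20 + t 3 * co g 60 + t 4 * co g 0 + t 5 * co g 80 + t 6 * co g 80 + t 7 * co g 80 + t 8 * co g 80 + t 9 * co g 80) := (h2 2).trans (by rw [sum10]; rfl)
    rw [e, co_zero, co_pow (e := 0) (by decide), co_pow (e := 20) (by decide), co_pow (e := 60) (by decide)]
    ring
  · have e : Mh q 0 2 * q 0 2 = 1 + (t 0 * co g 80 + t 1 * co g 80 + t 2 * co g 80 + t 3 * co g 80 + t 4 * co g 0 + t 5 * co g 80 + t 6 * co g 80 + t 7 * co g 20 + t 8 * co g 80 + t 9 * co g 80) := (h2 3).trans (by rw [sum10]; rfl)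
    rw [e, co_zero, co_pow (e := 0) (by decide), co_pow (e := 20) (by decide)]
    ring
  · have e : Mh q 0 0 * q 0 0 = 0 + (t 0 * co g 80 + t 1 * co g 18 + t 2 * co g 43 + t 3 * co g 54 + t 4 * co g 0 + t 5 * co g 80 + t 6 * co g 80 + t 7 * co g 60 + t 8 * co g 80 + t 9 * co g 80) := (h2 4).trans (by rw [sum10]; rfl)
    rw [e, co_zero, co_pow (e := 0) (by decide), co_pow (e := 18) (by decide), co_pow (e := 43) (by decide), co_pow (e := 54) (by decide), co_pow (e := 60) (by decide)]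
    ring
  · have e : Mh q 0 3 * q 0 3 = 1 + (t 0 * co g 80 + t 1 * co g 80 + t 2 * co g 80 + t 3 * co g 80 + t 4 * co g 80 + t 5 * co g 45 + t 6 * co g 25 + t 7 * co g 20 + t 8 * co g 0 + t 9 * co g 80) := (h2 5).trans (by rw [sum10]; rfl)
    rw [e, co_zero, co_pow (e := 0) (by decide), co_pow (e := 20) (by decide), co_pow (e := 25) (by decide), co_pow (e := 45) (by decide)]
    ring
  · have e : Mh q 0 4 * q 0 4 = 1 + (t 0 * co g 40 + t 1 * co g 43 + t 2 * co g 46 + t 3 * co g 49 + t 4 * co g 0 + t 5 * co g 5 + t 6 * co g 65 + t 7 * co g 60 + t 8 * co g 40 + t 9 * co g 80) := (h2 6).trans (by rw [sum10]; rfl)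
    rw [e, co_zero, co_pow (e := 0) (by decide), co_pow (e := 5) (by decide), co_pow (e := 40) (by decide), co_pow (e := 43) (by decide), co_pow (e := 46) (by decide), co_pow (e := 49) (by decide), co_pow (e := 60) (by decide), co_pow (e := 65) (by decide)]
    ring
  · have e : Mh q 3 3 * q 3 3 = 0 + (t 0 * co g 0 + t 1 * co g 43 + t 2 * co g 46 + t 3 * co g 55 + t 4 * co g 80 + t 5 * co g 42 + t 6 * co g 3 + t 7 * co g 80 + t 8 * co g 0 + t 9 * co g 20) := (h2 7).trans (by rw [sum10]; rfl)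
    rw [e, co_zero, co_pow (e := 0) (by decide), co_pow (e := 3) (by decide), co_pow (e := 20) (by decide), co_pow (e := 42) (by decide), co_pow (e := 43) (by decide), co_pow (e := 46) (by decide), co_pow (e := 55) (by decide)]
    ring
  · have e : Mh q 3 4 * q 3 4 = 1 + (t 0 * co g 80 + t 1 * co g 20 + t 2 * co g 20 + t 3 * co g 20 + t 4 * co g 0 + t 5 * co g 20 + t 6 * co g 20 + t 7 * co g 80 + t 8 * co g 40 + t 9 * co g 60) := (h2 8).trans (by rw [sum10]; rfl)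
    rw [e, co_zero, co_pow (e := 0) (by decide), co_pow (e := 20) (by decide), co_pow (e := 40) (by decide), co_pow (e := 60) (by decide)]
    ring

end Cfsg.Agent.H861.P9
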