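import Cfsg.Agent.H861.P9.Vec

/-!
# S5925, box H, piece G1: the products `P a b = Mh q a b * q a b` in ten ternary parameters (helper861, data of
# helper947 and helper879)
-/

set_option autoImplicit false

namespace Cfsg.Agent.H861.P9

open Cfsg.Agent.H879.E83
open Cfsg.Agent.H516.BS (io)

/-- the codes `c₀ + 3 c₁ + 9 c₂ + 27 c₃` of `g ^ n`, `n < 80` -/
def PL : List ℕ := [1, 3, 9, 27, 7, 21, 63, 32, 13, 39, 43, 46, 55, 8, 24, 72, 59, 11, 33, 25, 75, 68, 38, 31, 10, 30, 16, 48, 70, 53, 76, 71, 47, 58, 17, 51, 79, 80, 74, 56, 2, 6, 18, 54, 5, 15, 45, 61, 26, 78, 77, 65, 29, 4, 12, 36, 34, 19, 57, 14, 42, 52, 73, 62, 20, 60, 23, 69, 50, 67, 44, 49, 64, 35, 22, 66, 41, 40, 37, 28]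

/-- the coordinates of `g ^ n` -/
def cd (n : ℕ) : Fin 4 → ZMod 3 := fun i => ((PL.getD (n % 80) 0 / 3 ^ i.val % 3 : ℕ) : ZMod 3)

theorem cd_mod (n : ℕ) : cd (n % 80) = cd n := by
  unfold cd
  rw [Nat.mod_mod]

theorem cd_step : ∀ n < 80, cd (n + 1) = step (cd n) := by decide +kernel

theorem cd_zero : cd 0 = pw 0 := by decide +kernel

theorem cd_succ (n : ℕ) : cd (n + 1) = step (cd n) := by
  have h1 : cd (n + 1) = cd (n % 80 + 1) := by
    rw [← cd_mod (n + 1), ← cd_mod (n % 80 + 1)]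
    congr 1
    omega
  rw [h1, cd_step _ (Nat.mod_lt _ (by norm_num)), cd_mod]

theorem cd_eq (n : ℕ) : cd n = pw n := by
  induction n with
  | zero => exact cd_zero
  | succ n ih => rw [cd_succ, ih, pw]

/-- the representatives of the pairs `(j, l)` -/
def rj : Fin 10 → Fin 5 := ![1, 2, 1, 1, 1, 2, 2, 3, 3, 4]
def rl : Fin 10 → Fin 5 := ![1, 2, 2, 3, 4, 1, 3, 1, 2, 1]

/-- the coefficients of `n j l` -/
def A (j l : Fin 5) (k : Fin 10) : ZMod 3 :=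
  if (j = rj k ∧ l = rl k) ∨ (-l = rj k ∧ -j = rl k) then 1 else 0

theorem A_cases : ∀ j l : Fin 5, ((j = 0 ∨ l = 0) ∧ ∀ k, A j l k = 0) ∨
    ∃ k, (∀ k', A j l k' = if k' = k then 1 else 0) ∧ ((j = rj k ∧ l = rl k) ∨ (-l = rj k ∧ -j = rl k)) := by
  decide +kernel

/-- the exponents -/
def NN (j l a b : Fin 5) : ℕ := eE j l + 16 * (l * a).val + 16 * (-j * b).val

/-- the coefficients of `P a b` -/
def cf (a b : Fin 5) (k : Fin 10) : Fin 4 → ZMod 3 := fun i => -∑ j, ∑ l, A j l k * cd (NN j l a b) i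

/-- the constant -/
def c0 (a b : Fin 5) : Fin 4 → ZMod 3 := if a = b then 0 else cd 0

section
variable {F : Type*} [Field F] [CharP F 3] {g : F}

theorem tg_cd (hg : g ^ 4 = 1 - g) (n : ℕ) : tg g (cd n) = g ^ n := by rw [cd_eq, tg_pw hg]

theorem n_eq {n : Fin 5 → Fin 5 → ZMod 3} (h1 : ∀ l, n 0 l = 0) (h2 : ∀ j, n j 0 = 0)
    (h3 : ∀ j l, n (-l) (-j) = n j l) (j l : Fin 5) : n j l = ∑ k, A j l k * n (rj k) (rl k) := by
  rcases A_cases j l with ⟨h, hA⟩ | ⟨k, hA, h⟩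
  · rw [Finset.sum_eq_zero fun k _ => by rw [hA, zero_mul]]
    rcases h with rfl | rfl
    · exact h1 l
    · exact h2 j
  · rw [Finset.sum_eq_single k (fun k' _ hk => by rw [hA, if_neg hk, zero_mul]) (fun hk => absurd (Finset.mem_univ _) hk),
      hA, if_pos rfl, one_mul]
    rcases h with ⟨rfl, rfl⟩ | ⟨e1, e2⟩
    · rfl
    · rw [← e1, ← e2, h3]

theorem P_lf (hg : g ^ 4 = 1 - g) {n : Fin 5 → Fin 5 → ZMod 3} (h1 : ∀ l, n 0 l = 0) (h2 : ∀ j, n j 0 = 0)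
    (h3 : ∀ j l, n (-l) (-j) = n j l) (a b : Fin 5) :
    (if a = b then 0 else 1) - ∑ j, ∑ l, ((n j l).val : F) * g ^ (eE j l) * ch g l a * ch g (-j) b =
      lf g (fun k => n (rj k) (rl k)) (c0 a b) (cf a b) := by
  unfold lf
  rw [sub_eq_add_neg]
  congr 1
  · unfold c0
    split_ifs
    · rw [map_zero]
    · rw [tg_cd hg, pow_zero]
  · have e1 : ∀ j l, ((n j l).val : F) * g ^ (eE j l) * ch g l a * ch g (-j) b =
        ∑ k, io F (n (rj k) (rl k)) * tg g (fun i => A j l k * cd (NN j l a b) i) := by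
      intro j l
      have e2 : g ^ (eE j l) * ch g l a * ch g (-j) b = g ^ NN j l a b := by
        unfold NN ch
        rw [pow_add, pow_add]
      rw [mul_assoc, mul_assoc, ← mul_assoc (g ^ (eE j l)), e2, io_val, n_eq h1 h2 h3 j l, map_sum, Finset.sum_mul]
      refine Finset.sum_congr rfl fun k _ => ?_
      rw [map_mul, tg_smul, tg_cd hg]
      ring
    have e3 : ∀ k, tg g (cf a b k) = -∑ j, ∑ l, tg g (fun i => A j l k * cd (NN j l a b) i) := by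
      intro k
      have e4 : cf a b k = -∑ j, ∑ l, (fun i => A j l k * cd (NN j l a b) i) := by
        funext i
        simp only [cf, Pi.neg_apply, Finset.sum_apply]
      rw [e4, map_neg, map_sum]
      simp only [map_sum]
    simp only [e1, e3]
    rw [← Finset.sum_neg_distrib]
    simp only [mul_neg, Finset.mul_sum]
    rw [Finset.sum_neg_distrib, Finset.sum_neg_distrib]
    congr 1
    calc ∑ j, ∑ l, ∑ k, io F (n (rj k) (rl k)) * tg g (fun i => A j l k * cd (NN j l a b) i)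
        = ∑ j, ∑ k, ∑ l, io F (n (rj k) (rl k)) * tg g (fun i => A j l k * cd (NN j l a b) i) :=
          Finset.sum_congr rfl fun j _ => Finset.sum_comm
      _ = _ := Finset.sum_comm

end

/-! ### the tables -/

/-- the substitution (helper947) -/
def MT : Fin 10 → Fin 10 → ZMod 3 := ![![0, 0, 1, 1, 0, 2, 0, 2, 0, 0], ![1, 2, 0, 1, 0, 0, 0, 1, 2, 2], ![2, 1, 2, 2, 2, 2, 2, 2, 0, 2], ![2, 1, 2, 0, 1, 2, 0, 0, 1, 0], ![1, 1, 1, 1, 1, 2, 1, 2, 2, 1], ![0, 0, 2, 0, 0, 2, 2, 0, 2, 0], ![0, 0, 1, 2, 1, 1, 1, 2, 1, 2], ![0, 0, 2, 1, 1, 1, 2, 2, 1, 1], ![1, 1, 0, 0, 0, 0, 0, 0, 0, 0], ![1, 2, 0, 0, 0, 2, 0, 1, 2, 2]]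

/-- exponents, 80 = coefficient zero -/
def CE : Fin 9 → Fin 10 → ℕ := ![![0, 1, 2, 3, 80, 80, 80, 80, 80, 80], ![80, 80, 80, 80, 0, 25, 55, 80, 80, 80], ![0, 20, 20, 60, 0, 80, 80, 80, 80, 80], ![80, 80, 80, 80, 0, 80, 80, 20, 80, 80], ![80, 18, 43, 54, 0, 80, 80, 60, 80, 80], ![80, 80, 80, 80, 80, 45, 25, 20, 0, 80], ![40, 43, 46, 49, 0, 5, 65, 60, 40, 80], ![0, 43, 46, 55, 80, 42, 3, 80, 0, 20], ![80, 20, 20, 20, 0, 20, 20, 80, 40, 60]]

def ea : Fin 9 → Fin 5 := ![0, 1, 1, 0, 0, 0, 0, 3, 3]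
def eb : Fin 9 → Fin 5 := ![1, 3, 1, 2, 0, 3, 4, 3, 4]

/-- the coordinates of a coefficient -/
def ce (e : ℕ) : Fin 4 → ZMod 3 := if e = 80 then 0 else cd e

theorem chkT : ∀ (m : Fin 9) (k : Fin 10) (j : Fin 4), cf (ea m) (eb m) k j = ∑ i, MT i k * ce (CE m i) j := by
  decide +kernel

end Cfsg.Agent.H861.P9
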