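import Cfsg.Agent.H879.E83.PNine
import Cfsg.Agent.H516.BS.Basic

/-!
# S5925, box H, piece G1: vectors over `F_3` and elements of `F_81` (helper861)

`tg g v = ∑ v_i g^i` (`i < 4`); `pw n` : the coordinates of `g ^ n`.
-/

set_option autoImplicit false

namespace Cfsg.Agent.H861.P9

open Cfsg.Agent.H516.BS (io)

/-- multiplication by `g` on coordinates -/
def step (v : Fin 4 → ZMod 3) : Fin 4 → ZMod 3 := ![v 3, v 0 - v 3, v 1, v 2]

/-- the coordinates of `g ^ n` -/
def pw : ℕ → Fin 4 → ZMod 3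
  | 0 => ![1, 0, 0, 0]
  | n + 1 => step (pw n)

variable {F : Type*} [Field F] [CharP F 3]

/-- the element with given coordinates -/
noncomputable def tg (g : F) : (Fin 4 → ZMod 3) →+ F where
  toFun v := io F (v 0) + io F (v 1) * g + io F (v 2) * g ^ 2 + io F (v 3) * g ^ 3
  map_zero' := by simp
  map_add' v w := by simp only [Pi.add_apply, map_add]; ring

theorem tg_apply (g : F) (v : Fin 4 → ZMod 3) :
    tg g v = io F (v 0) + io F (v 1) * g + io F (v 2) * g ^ 2 + io F (v 3) * g ^ 3 := rfl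

theorem tg_smul (g : F) (c : ZMod 3) (v : Fin 4 → ZMod 3) : tg g (fun i => c * v i) = io F c * tg g v := by
  rw [tg_apply, tg_apply]
  simp only [map_mul]
  ring

theorem tg_step {g : F} (hg : g ^ 4 = 1 - g) (v : Fin 4 → ZMod 3) : tg g (step v) = g * tg g v := by
  rw [tg_apply, tg_apply]
  simp only [step, Matrix.cons_val, map_sub]
  linear_combination (-(io F (v 3))) * hg

theorem tg_pw {g : F} (hg : g ^ 4 = 1 - g) (n : ℕ) : tg g (pw n) = g ^ n := by
  induction n with
  | zero => rw [tg_apply]; simp [pw]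
  | succ n ih => rw [pw, tg_step hg, ih, pow_succ']

/-! ### linear forms in `n` values -/

/-- the value of a linear form with constant `c` and coefficients `f` -/
noncomputable def lf {n : ℕ} (g : F) (x : Fin n → ZMod 3) (c : Fin 4 → ZMod 3) (f : Fin n → Fin 4 → ZMod 3) : F :=
  tg g c + ∑ k, io F (x k) * tg g (f k)

theorem lf_congr {n : ℕ} (g : F) (x : Fin n → ZMod 3) {c c' : Fin 4 → ZMod 3} {f f' : Fin n → Fin 4 → ZMod 3}
    (hc : c = c') (hf : ∀ k, f k = f' k) : lf g x c f = lf g x c' f' := by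
  rw [hc, funext hf]

/-- substitution `t = M x` in a linear form -/
theorem lf_subst {n m : ℕ} (g : F) (x : Fin n → ZMod 3) (M : Fin m → Fin n → ZMod 3) (c : Fin 4 → ZMod 3)
    (f : Fin m → Fin 4 → ZMod 3) :
    lf g (fun i => ∑ k, M i k * x k) c f = lf g x c (fun k j => ∑ i, M i k * f i j) := by
  unfold lf
  congr 1
  have h1 : ∀ i, io F (∑ k, M i k * x k) * tg g (f i) = ∑ k, io F (x k) * tg g (fun j => M i k * f i j) := by
    intro i
    rw [map_sum, Finset.sum_mul]
    refine Finset.sum_congr rfl fun k _ => ?_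
    rw [tg_smul, map_mul]
    ring
  rw [Finset.sum_congr rfl fun i _ => h1 i, Finset.sum_comm]
  refine Finset.sum_congr rfl fun k _ => ?_
  rw [← Finset.mul_sum, ← map_sum]
  congr 2
  funext j
  rw [Finset.sum_apply]

theorem io_cases (c : ZMod 3) : io F c = 0 ∨ io F c = 1 ∨ io F c = 2 := by
  have key : ∀ c : ZMod 3, c = 0 ∨ c = 1 ∨ c = 2 := by decide
  rcases key c with rfl | rfl | rfl
  · exact Or.inl (map_zero _)
  · exact Or.inr (Or.inl (map_one _))
  · refine Or.inr (Or.inr ?_)
    rw [map_ofNat]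

theorem io_val (c : ZMod 3) : ((c.val : ℕ) : F) = io F c := by
  have key : ∀ c : ZMod 3, c = 0 ∨ c = 1 ∨ c = 2 := by decide
  rcases key c with rfl | rfl | rfl
  · rw [map_zero]; simp
  · rw [map_one]; simp [show (1 : ZMod 3).val = 1 from rfl]
  · rw [map_ofNat, show (2 : ZMod 3).val = 2 from rfl]; rfl

end Cfsg.Agent.H861.P9
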